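import Cfsg.Agent.Omega.TwoF.Defs
import Cfsg.Agent.H539.IdxOK
import Mathlib.GroupTheory.GroupAction.Defs
import Mathlib.Algebra.Group.Action.Basic

set_option autoImplicit false

/-!
# Index bounds from TABLE 2F

`le_index`: if every nontrivial action of `K` on a 2-group has at least `2 ^ n` points then proper
subgroups of `K` have index at least `n`.
-/

namespace Cfsg.Agent.H539.LBIdx

open Cfsg.Agent.Omega.TwoF
open scoped commutatorElement

theorem commutator_eq_top {K : Type*} [Group K] [IsSimpleGroup K] (hK : ¬ IsMulCommutative K) :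
    commutator K = ⊤ := by
  rcases IsSimpleGroup.eq_bot_or_eq_top_of_normal (commutator K) inferInstance with h | h
  · exfalso
    apply hK
    refine ⟨⟨fun a b => ?_⟩⟩
    have h1 : ⁅a, b⁆ ∈ commutator K :=
      Subgroup.commutator_mem_commutator (Subgroup.mem_top a) (Subgroup.mem_top b)
    rw [h, Subgroup.mem_bot, commutatorElement_eq_one_iff_mul_comm] at h1
    exact h1
  · exact h

/-- the action on functions -/
def fn {K : Type*} [Group K] {X : Type*} [MulAction K X] : K →* MulAut (X → Multiplicative (ZMod 2)) where
  toFun g :=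
    { toFun := fun f x => f (g⁻¹ • x)
      invFun := fun f x => f (g • x)
      left_inv := fun f => by
        funext x
        show f (g⁻¹ • g • x) = f x
        rw [inv_smul_smul]
      right_inv := fun f => by
        funext x
        show f (g • g⁻¹ • x) = f x
        rw [smul_inv_smul]
      map_mul' := fun f f' => rfl }
  map_one' := by
    ext f x
    show f ((1 : K)⁻¹ • x) = f x
    rw [inv_one, one_smul]
  map_mul' g h := by
    ext f x
    show f ((g * h)⁻¹ • x) = f (h⁻¹ • g⁻¹ • x)
    rw [mul_inv_rev, mul_smul]

theorem le_index {K : Type} [Group K] [Finite K] [IsSimpleGroup K] (hK : ¬ IsMulCommutative K)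
    {n : ℕ} (h : LB.{0, 0} K n) (H : Subgroup K) (hH : H ≠ ⊤) : n ≤ H.index := by
  classical
  have hf : Finite (K ⧸ H) := inferInstance
  have hc : Nat.card ((K ⧸ H) → Multiplicative (ZMod 2)) = 2 ^ H.index := by
    rw [Nat.card_fun, ← Subgroup.index_eq_card]
    congr 1
    rw [Nat.card_congr Multiplicative.toAdd, Nat.card_eq_fintype_card, ZMod.card]
  have h1 := h K (MonoidHom.id K)
    { perf := commutator_eq_top hK
      surj := Function.surjective_id
      cent := by
        rw [(MonoidHom.ker_eq_bot_iff _).2 Function.injective_id]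
        exact bot_le
      odd := by
        rw [(MonoidHom.ker_eq_bot_iff _).2 Function.injective_id, Subgroup.card_bot]
        exact odd_one }
    ((K ⧸ H) → Multiplicative (ZMod 2)) (fn (X := K ⧸ H)) (by
      intro f
      funext x
      show f x ^ 2 = 1
      apply Multiplicative.toAdd.injective
      rw [toAdd_pow, toAdd_one]
      generalize (f x).toAdd = z
      revert z
      decide) (by
      intro h0
      apply hH
      rw [eq_top_iff]
      intro g _
      have h2 := congrArg (fun φ : MulAut ((K ⧸ H) → Multiplicative (ZMod 2)) =>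
        φ (Pi.mulSingle ((1 : K) : K ⧸ H) (Multiplicative.ofAdd 1)) ((g : K) : K ⧸ H))
        (DFunLike.congr_fun h0 g)
      have h3 : (Pi.mulSingle ((1 : K) : K ⧸ H) (Multiplicative.ofAdd 1) :
          (K ⧸ H) → Multiplicative (ZMod 2)) (g⁻¹ • ((g : K) : K ⧸ H)) =
        (Pi.mulSingle ((1 : K) : K ⧸ H) (Multiplicative.ofAdd 1) :
          (K ⧸ H) → Multiplicative (ZMod 2)) ((g : K) : K ⧸ H) := h2
      have h4 : g⁻¹ • ((g : K) : K ⧸ H) = ((1 : K) : K ⧸ H) := by
        show ((g⁻¹ * g : K) : K ⧸ H) = _
        rw [inv_mul_cancel]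
      rw [h4, Pi.mulSingle_eq_same] at h3
      by_contra hg
      rw [Pi.mulSingle_eq_of_ne] at h3
      · revert h3
        decide
      · intro h5
        apply hg
        have h6 := QuotientGroup.eq.1 h5
        rw [mul_one] at h6
        exact (inv_mem_iff).1 h6)
  rw [hc] at h1
  exact (Nat.pow_le_pow_iff_right (by norm_num)).1 h1

end Cfsg.Agent.H539.LBIdx
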